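import Cfsg.Agent.H89.M24.Triple
import Cfsg.Agent.H43.M23Local

/-! In type M(24) the joint centralizer of two commuting members is a central extension of a group
of type M(22) by the group they generate. -/

set_option autoImplicit false

open Cfsg.Agent.H43.FischerTwins Cfsg.Agent.H53 Cfsg.Agent.H89.M23
open Subgroup

namespace Cfsg.Agent.H89.M24

/-- The facts about the joint centralizer of two commuting members. -/
def PairFacts {G : Type*} [Group G] (D : Set G) (a b : G) : Prop :=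
  (∀ x ∈ centralizer ({a, b} : Set G),
      x ∈ ⁅centralizer ({a, b} : Set G), centralizer ({a, b} : Set G)⁆ ∨
      x * a ∈ ⁅centralizer ({a, b} : Set G), centralizer ({a, b} : Set G)⁆) ∧
    (center ↥(centralizer ({a, b} : Set G))).map (centralizer ({a, b} : Set G)).subtype =
      closure ({a, b} : Set G) ∧
    (∃ E : Set (↥(centralizer ({a, b} : Set G)) ⧸ center ↥(centralizer ({a, b} : Set G))),
      Cfsg.IsThreeTranspositionClass E ∧ Cfsg.IsPrimitiveUnderConj E ∧
        Cfsg.IsOfTypeM22 (↥(centralizer ({a, b} : Set G)) ⧸ center ↥(centralizer ({a, b} : Set G)))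
          E) ∧
    ∃ c, c ∈ Sset D a ∧ c ∈ Sset D b

variable {G : Type*} [Group G] [Finite G] {D : Set G}
variable (hD : Cfsg.IsThreeTranspositionClass D) (hprim : Cfsg.IsPrimitiveUnderConj D)
  (h : Cfsg.IsOfTypeM24 G D)
include hD hprim h

/-- Around the witness every partner gives the facts. -/
theorem pair_witness : ∃ d ∈ D, ∀ q ∈ Sset D d, PairFacts D d q := by
  classical
  obtain ⟨d, hd, hcl, hp, h23, -⟩ := m24_sub hD hprim h
  refine ⟨d, hd, fun q hqS => ?_⟩
  have hG := H17.class_group hD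
  have hH := sub_group hG (Sset D d) (fun y hy => hy.1) (fun s hs t ht => sset_stable hG d hs ht)
  have hsub := m24_subs hD hprim h d hd
  let π : ↥(closure (Sset D d)) →* NearQuot D d := QuotientGroup.mk' _
  let Q' : ↥(closure (Sset D d)) := ⟨q, subset_closure hqS⟩
  have inj : ∀ {x y : ↥(closure (Sset D d))}, (x : G) ∈ Sset D d → (y : G) ∈ Sset D d →
      π x = π y → x = y := fun hx hy e => mk_inj hH hx hy (hsub.nc hx) e
  have hB : π Q' ∈ nearImage D d := ⟨Q', hqS, rfl⟩
  obtain ⟨hqs, hcen⟩ := m23_quasisimple hcl hp h23 hB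
  obtain ⟨hcl', hp', h22'⟩ := H43.M23.local_all hcl hp h23 hB
  let P : Subgroup (NearQuot D d) := closure (Sset (nearImage D d) (π Q'))
  have hP : P = centralizer ({π Q'} : Set (NearQuot D d)) :=
    H43.M23.centralizer_partners hcl hp h23 hB
  obtain ⟨J, hJ⟩ : ∃ J, J = centralizer ({d, q} : Set G) := ⟨_, rfl⟩
  have hJmem : ∀ {x : G}, x ∈ J ↔ Commute d x ∧ Commute q x := fun {x} => by
    rw [hJ, mem_centralizer_iff]
    simp only [Set.mem_insert_iff, Set.mem_singleton_iff, forall_eq_or_imp, forall_eq]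
    rfl
  have hJH : J ≤ closure (Sset D d) := fun x hx => by
    rw [near_centralizer hD hprim h hd, mem_centralizer_singleton_iff]
    exact (hJmem.1 hx).1.symm.eq
  have hfP : ∀ x : ↥J, π (inclusion hJH x) ∈ P := fun x => by
    rw [hP, mem_centralizer_singleton_iff]
    exact ((show Commute (inclusion hJH x) Q' from commute_coe.1 (hJmem.1 x.2).2.symm).map π).eq
  let f : ↥J →* ↥P := (π.comp (inclusion hJH)).codRestrict P hfP
  have hfs : Function.Surjective f := by
    rintro ⟨z, hz⟩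
    obtain ⟨x, hx⟩ := QuotientGroup.mk'_surjective _ z
    rw [hP, mem_centralizer_singleton_iff] at hz
    have hxQ : x * Q' * x⁻¹ = Q' := inj (hH.2.1 x Q' hqS) hqS (by
      rw [map_mul, map_mul, map_inv, show π x = z from hx, hz, mul_inv_cancel_right])
    exact ⟨⟨x, hJmem.2 ⟨H43.M22.nearGen_commute x.2,
      (commute_coe.2 (show Commute x Q' from mul_inv_eq_iff_eq_mul.1 hxQ)).symm⟩⟩, Subtype.ext hx⟩
  have hker : ∀ x : ↥(closure (Sset D d)), π x = 1 → (x : G) = 1 ∨ (x : G) = d := fun x hx =>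
    center_near hD hprim (Or.inr h) hd x ((QuotientGroup.eq_one_iff x).1 hx)
  have hdJ : d ∈ J := hJmem.2 ⟨Commute.refl d, hqS.2.2.symm⟩
  have hVJ : ∀ v ∈ closure ({d, q} : Set G), ∀ x ∈ J, Commute v x := by
    intro v hv x hx
    have hle : closure ({d, q} : Set G) ≤ centralizer {x} := by
      rw [closure_le]
      rintro z (rfl | rfl)
      · exact mem_centralizer_singleton_iff.2 (hJmem.1 hx).1.eq
      · exact mem_centralizer_singleton_iff.2 (hJmem.1 hx).2.eq
    exact mem_centralizer_singleton_iff.1 (hle hv)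
  have hVsub : closure ({d, q} : Set G) ≤ J := by
    rw [closure_le]
    rintro z (rfl | rfl)
    · exact hdJ
    · exact hJmem.2 ⟨hqS.2.2, Commute.refl _⟩
  have hdV : d ∈ closure ({d, q} : Set G) := subset_closure (Set.mem_insert _ _)
  have hqV : q ∈ closure ({d, q} : Set G) := subset_closure (Set.mem_insert_of_mem _ rfl)
  have hfcen : ∀ x : ↥J, x ∈ center ↥J → f x ∈ center ↥P := fun x hx => by
    refine mem_center_iff.2 fun z => ?_
    obtain ⟨y, rfl⟩ := hfs z
    rw [← map_mul, ← map_mul, mem_center_iff.1 hx y]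
  have hpre : ∀ x : ↥J, f x ∈ center ↥P → (x : G) ∈ closure ({d, q} : Set G) := by
    intro x hx
    rw [hcen, mem_subgroupOf] at hx
    obtain ⟨i, hi⟩ := hx
    replace hi : π Q' ^ i = π (inclusion hJH x) := hi
    have h1 : π ((Q' ^ i)⁻¹ * inclusion hJH x) = 1 := by
      rw [map_mul, map_inv, map_zpow, hi, inv_mul_cancel]
    have e : (x : G) = q ^ i * (((Q' ^ i)⁻¹ * inclusion hJH x : ↥(closure (Sset D d))) : G) := by
      simp [Q']
    rw [e]
    refine mul_mem (zpow_mem hqV i) ?_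
    rcases hker _ h1 with e | e <;> rw [e]
    · exact one_mem _
    · exact hdV
  have hVcen : ∀ x : ↥J, (x : G) ∈ closure ({d, q} : Set G) → x ∈ center ↥J := fun x hx =>
    mem_center_iff.2 fun y => Subtype.ext (hVJ _ hx _ y.2).eq.symm
  have hcenK : center ↥J = ((QuotientGroup.mk' (center ↥P)).comp f).ker := by
    ext x
    rw [MonoidHom.mem_ker, MonoidHom.comp_apply, QuotientGroup.mk'_apply, QuotientGroup.eq_one_iff]
    exact ⟨hfcen x, fun hx => hVcen x (hpre x hx)⟩
  let ψ : ↥J ⧸ center ↥J ≃* NearQuot (nearImage D d) (π Q') :=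
    (QuotientGroup.quotientMulEquivOfEq hcenK).trans (QuotientGroup.quotientKerEquivOfSurjective _
      ((QuotientGroup.mk'_surjective _).comp hfs))
  obtain ⟨z₀, hz₀, -⟩ := (m23_subs hcl hp h23 (π Q') hB).pair
  obtain ⟨⟨⟨y, hy'⟩, hy, rfl⟩, hne, hcom⟩ := hz₀
  subst hJ
  refine ⟨?_, le_antisymm ?_ fun v hv => ⟨⟨v, hVsub hv⟩, hVcen _ hv, rfl⟩,
    ⟨ψ.symm '' nearImage (nearImage D d) (π Q'), class_map ψ.symm hcl', primitive_map ψ.symm hp',
      H43.M23.m22_map ψ.symm h22'⟩, y, hy, hy.1, fun e => hne (congrArg π (Subtype.ext e)),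
      commute_coe.2 ((mk_commute hH (x := Q') (y := ⟨y, hy'⟩) hqS hy).1 hcom)⟩
  · intro x hx
    have hPp : (commutator ↥(centralizer ({d, q} : Set G))).map f = ⊤ := by
      rw [_root_.commutator_def, map_commutator, map_top_of_surjective f hfs,
        ← _root_.commutator_def]
      exact hqs.1.1
    obtain ⟨c, hc, hcx⟩ : f ⟨x, hx⟩ ∈ (commutator ↥(centralizer ({d, q} : Set G))).map f :=
      hPp ▸ mem_top _
    have hc' : (c : G) ∈ ⁅centralizer ({d, q} : Set G), centralizer ({d, q} : Set G)⁆ := by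
      rw [← Subgroup.map_subtype_commutator]
      exact ⟨c, hc, rfl⟩
    have h1 : π (inclusion hJH (c⁻¹ * ⟨x, hx⟩)) = 1 :=
      congrArg Subtype.val (show f (c⁻¹ * ⟨x, hx⟩) = 1 by rw [map_mul, map_inv, hcx, inv_mul_cancel])
    rcases hker _ h1 with e | e
    · left
      rwa [← inv_mul_eq_one.1 (show (c : G)⁻¹ * x = 1 from e)]
    · right
      rwa [eq_mul_of_inv_mul_eq (show (c : G)⁻¹ * x = d from e), mul_assoc, H17.sq_one hD.1 hd,
        mul_one]
  · rintro _ ⟨x, hx, rfl⟩
    exact hpre x (hfcen x hx)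

/-- The facts hold for all pairs of commuting members. -/
theorem pair_facts {a b : G} (ha : a ∈ D) (hb : b ∈ D) (hne : a ≠ b) (hc : Commute a b) :
    PairFacts D a b := by
  obtain ⟨d, hd, hall⟩ := pair_witness hD hprim h
  obtain ⟨g, rfl⟩ := H17.class_transitive hD hd ha
  obtain ⟨q, rfl⟩ : ∃ q, g * q * g⁻¹ = b := ⟨g⁻¹ * b * g, by group⟩
  have hconj := H17.class_conj hD
  obtain ⟨hdec, hcen, ⟨E, hE1, hE2, hE3⟩, c, hcd, hcq⟩ :=
    hall q ((sset_conj hconj g).1 ⟨hb, hne.symm, hc⟩)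
  let σ : G →* G := (MulAut.conj g).toMonoidHom
  have hmap : (centralizer ({d, q} : Set G)).map σ =
      centralizer ({g * d * g⁻¹, g * q * g⁻¹} : Set G) := by
    ext x
    obtain ⟨y, rfl⟩ : ∃ y, g * y * g⁻¹ = x := ⟨g⁻¹ * x * g, by group⟩
    rw [show g * y * g⁻¹ = σ y from rfl, mem_map_iff_mem (MulAut.conj g).injective]
    simp only [mem_centralizer_iff, Set.mem_insert_iff, Set.mem_singleton_iff, forall_eq_or_imp,
      forall_eq]
    exact and_congr (H17.commute_conj g).symm (H17.commute_conj g).symm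
  let e : ↥(centralizer ({d, q} : Set G)) ≃*
      ↥(centralizer ({g * d * g⁻¹, g * q * g⁻¹} : Set G)) :=
    (equivMapOfInjective _ σ (MulAut.conj g).injective).trans (MulEquiv.subgroupCongr hmap)
  obtain ⟨e'⟩ := H89.M22.nonempty_quot_center e
  refine ⟨?_, ?_, ⟨e' '' E, class_map e' hE1, primitive_map e' hE2, H43.M23.m22_map e' hE3⟩,
    g * c * g⁻¹, (sset_conj hconj g).2 hcd, (sset_conj hconj g).2 hcq⟩
  · intro x hx
    obtain ⟨y, hy, rfl⟩ := hmap ▸ hx
    rw [← hmap, ← map_commutator, show g * d * g⁻¹ = σ d from rfl, ← map_mul,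
      mem_map_iff_mem (MulAut.conj g).injective, mem_map_iff_mem (MulAut.conj g).injective]
    exact hdec y hy
  · have himg : closure ({g * d * g⁻¹, g * q * g⁻¹} : Set G) =
        (closure ({d, q} : Set G)).map σ := by
      rw [MonoidHom.map_closure, Set.image_pair]; rfl
    rw [himg, ← hcen]
    ext x
    constructor
    · rintro ⟨z, hz, rfl⟩
      obtain ⟨z, rfl⟩ := e.surjective z
      refine ⟨z, ⟨z, mem_center_iff.2 fun w => e.injective ?_, rfl⟩, rfl⟩
      rw [map_mul, map_mul]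
      exact mem_center_iff.1 hz (e w)
    · rintro ⟨_, ⟨z, hz, rfl⟩, rfl⟩
      refine ⟨e z, mem_center_iff.2 fun w => ?_, rfl⟩
      obtain ⟨w, rfl⟩ := e.surjective w
      rw [← map_mul, ← map_mul, mem_center_iff.1 hz w]

end Cfsg.Agent.H89.M24
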