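import Cfsg.Agent.H89.M24.Triple
import Cfsg.Agent.H51.FStar
import Cfsg.Agent.H52.LocalBalance
import Cfsg.Agent.H23.AutPSU.Main

/-! In type M(24) the centralizer, in the commutator subgroup, of a product of three commuting
members is the full automorphism group of `PSU(6,2)` extended by a four-group. -/

set_option autoImplicit false

open Cfsg.Agent.H43.FischerTwins Cfsg.Agent.H53 Cfsg.Agent.H89.M23
open Subgroup
open scoped commutatorElement

namespace Cfsg.Agent.H89.M24

/-- A normal quasisimple subgroup containing its centralizer is the generalized Fitting subgroup. -/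
theorem generalizedFitting_eq {X : Type*} [Group X] [Finite X] {K : Subgroup X} (hn : K.Normal)
    (hq : Cfsg.IsQuasisimple ↥K) (hc : centralizer (K : Set X) ≤ K) :
    Cfsg.generalizedFittingSubgroup X = K := by
  have hK : Cfsg.IsComponent K := ⟨hn.isSubnormal, hq⟩
  refine le_antisymm (sup_le (sSup_le fun L hL => ?_) ?_)
    ((H51.component_le_layer hK).trans le_sup_left)
  · rcases H51.component_le_or_commute_of_normal hL hn with h | h
    · exact h
    · exact (commutator_eq_bot_iff_le_centralizer.1 h).trans hc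
  · refine le_trans ?_ hc
    rw [← commutator_eq_bot_iff_le_centralizer, commutator_comm]
    exact le_bot_iff.1 ((commutator_mono (H51.component_le_layer hK) le_rfl).trans
      (H51.layer_commute_fittingSubgroup X).le)

variable {G : Type*} [Group G] {D : Set G}

/-- Modulo the commutator subgroup every element is trivial or congruent to a member. -/
theorem mem_or_mul_mem (hD : Cfsg.IsThreeTranspositionClass D) {a : G} (ha : a ∈ D) (x : G) :
    x ∈ commutator G ∨ x * a ∈ commutator G := by
  have hx : x ∈ closure D := hD.2.2 ▸ mem_top x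
  have ha2 : a * a = 1 := H17.sq_one hD.1 ha
  simp only [← Abelianization.ker_of, MonoidHom.mem_ker, map_mul]
  obtain ⟨α, hα⟩ : ∃ α, α = Abelianization.of a := ⟨_, rfl⟩
  have hαα : α * α = 1 := by rw [hα, ← map_mul, ha2, map_one]
  rw [← hα]
  induction hx using closure_induction with
  | mem y hy =>
    obtain ⟨g, rfl⟩ := H17.class_transitive hD ha hy
    exact Or.inr (by rw [map_mul, map_mul, map_inv, ← hα, mul_comm (Abelianization.of g),
      mul_inv_cancel_right, hαα])
  | one => exact Or.inl (map_one _)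
  | mul u v _ _ hu hv =>
    rcases hu with hu | hu <;> rcases hv with hv | hv
    · exact Or.inl (by rw [map_mul, hu, hv, one_mul])
    · exact Or.inr (by rw [map_mul, hu, one_mul, hv])
    · exact Or.inr (by rw [map_mul, hv, mul_one, hu])
    · exact Or.inl (by rw [map_mul, eq_inv_of_mul_eq_one_left hu, eq_inv_of_mul_eq_one_left hv,
        ← mul_inv_rev, hαα, inv_one])
  | inv u _ hu =>
    rcases hu with hu | hu
    · exact Or.inl (by rw [map_inv, hu, inv_one])
    · exact Or.inr (by rw [map_inv, eq_inv_of_mul_eq_one_left hu, inv_inv, hαα])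

variable [Finite G]

/-- The centralizer of the product of three commuting members inside the commutator subgroup, when
the members lie outside it. -/
theorem triple_product (hG : Cfsg.IsThreeTranspositionGroup D)
    (hprim : Cfsg.IsPrimitiveUnderConj D) {d₀ : G} (hd₀ : d₀ ∈ D)
    (h2 : Cfsg.pCore 2 ↥(closure (Sset D d₀)) ≤ center ↥(closure (Sset D d₀)))
    (h24 : Cfsg.IsOfTypeM24 G D) {L : Subgroup G} (hL : L = commutator G) {a b c : G} (ha : a ∈ D)
    (hb : b ∈ D) (hc : c ∈ D) (hab : a ≠ b) (hac : a ≠ c) (hbc : b ≠ c) (cab : Commute a b)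
    (cac : Commute a c) (cbc : Commute b c) (haL : a ∉ L) {E CL K : Subgroup G}
    (hE : E = closure ({a * b, a * c} : Set G)) (hCL : CL = L ⊓ centralizer ({a * b * c} : Set G))
    (hK : K = (Cfsg.generalizedFittingSubgroup ↥CL).map CL.subtype) :
    Cfsg.IsQuasisimple ↥K ∧ (center ↥K).map K.subtype = E ∧ K = L ⊓ centralizer (E : Set G) ∧
      (∃ (_ : (E.subgroupOf K).Normal) (F : Type) (_ : Field F) (_ : Fintype F),
        Fintype.card F = 4 ∧ Nonempty (↥K ⧸ E.subgroupOf K ≃* Cfsg.PSU 6 F 2)) ∧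
      ∃ _ : (K.subgroupOf CL).Normal, Nonempty (↥CL ⧸ K.subgroupOf CL ≃* Equiv.Perm (Fin 3)) ∧
        E ≤ CL ∧ ∃ (_ : (E.subgroupOf CL).Normal) (F : Type) (_ : Field F) (_ : Fintype F),
          Fintype.card F = 4 ∧
            Nonempty (↥CL ⧸ E.subgroupOf CL ≃* MulAut (Cfsg.PSU 6 F 2)) := by
  classical
  subst hE
  have hD := (H17.class_of_primitive hG hprim).1
  obtain ⟨hdec, hcen, F, iF, iFF, hF, ⟨φ⟩⟩ :=
    triple_facts hD hprim h24 ha hb hc hab hac hbc cab cac cbc
  have hLn : L.Normal := hL ▸ inferInstance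
  obtain ⟨J, hJ⟩ : ∃ J, J = centralizer ({a, b, c} : Set G) := ⟨_, rfl⟩
  rw [← hJ] at hdec
  have hJmem : ∀ {x : G}, x ∈ J ↔ Commute a x ∧ Commute b x ∧ Commute c x := fun {x} => by
    rw [hJ, mem_centralizer_iff]
    simp only [Set.mem_insert_iff, Set.mem_singleton_iff, forall_eq_or_imp, forall_eq]
    rfl
  have haJ : a ∈ J := hJmem.2 ⟨Commute.refl a, cab.symm, cac.symm⟩
  have hder : ⁅J, J⁆ ≤ L := hL ▸ _root_.commutator_def G ▸ commutator_mono le_top le_top
  -- the intersection with the commutator subgroup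
  obtain ⟨K₀, hK₀⟩ : ∃ K₀, K₀ = L ⊓ J := ⟨_, rfl⟩
  have hK₀d : K₀ = ⁅J, J⁆ := by
    refine le_antisymm (fun x hx => ?_) (hK₀ ▸ le_inf hder (commutator_le_self J))
    rw [hK₀] at hx
    refine (hdec x hx.2).resolve_right fun h => haL ?_
    simpa using L.mul_mem (L.inv_mem hx.1) (hder h)
  have hperf : ⁅K₀, K₀⁆ = K₀ := by
    refine le_antisymm (commutator_le_self K₀) (le_of_eq_of_le hK₀d ?_)
    rw [commutator_le]
    intro x hx y hy
    have red : ∀ u ∈ J, ∃ u' ∈ K₀, ∀ w ∈ J, ⁅u, w⁆ = ⁅u', w⁆ ∧ ⁅w, u⁆ = ⁅w, u'⁆ := by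
      intro u hu
      rcases hdec u hu with h | h
      · exact ⟨u, hK₀d ▸ h, fun w _ => ⟨rfl, rfl⟩⟩
      · refine ⟨u * a, hK₀d ▸ h, fun w hw => ?_⟩
        have e : Commute a w := (hJmem.1 hw).1
        have e1 : a * w * a⁻¹ = w := by rw [e.eq, mul_inv_cancel_right]
        refine ⟨?_, ?_⟩
        · rw [commutatorElement_def, commutatorElement_def]
          calc u * w * u⁻¹ * w⁻¹ = u * (a * w * a⁻¹) * u⁻¹ * w⁻¹ := by rw [e1]
            _ = _ := by group
        · rw [commutatorElement_def, commutatorElement_def]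
          calc w * u * w⁻¹ * u⁻¹ = w * u * (a * w * a⁻¹)⁻¹ * u⁻¹ := by rw [e1]
            _ = _ := by group
    obtain ⟨x', hx', hxe⟩ := red x hx
    obtain ⟨y', hy', hye⟩ := red y hy
    rw [(hxe y hy).1, (hye x' (show x' ∈ J from (hK₀ ▸ hx' : x' ∈ L ⊓ J).2)).2]
    exact commutator_mem_commutator hx' hy'
  haveI : Group.IsPerfect ↥K₀ := Subgroup.isPerfect_iff.mpr hperf
  have hle₀ : K₀ ≤ J := hK₀.le.trans inf_le_right
  let h : ↥K₀ →* ↥J ⧸ center ↥J := (QuotientGroup.mk' _).comp (inclusion hle₀)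
  obtain ⟨A, hA⟩ : ∃ A : ↥J, (A : G) = a := ⟨⟨a, haJ⟩, rfl⟩
  have hAc : A ∈ center ↥J := mem_center_iff.2 fun y => Subtype.ext (by
    simp only [Subgroup.coe_mul, hA]
    exact (hJmem.1 y.2).1.eq.symm)
  have hhs : Function.Surjective h := by
    intro z
    obtain ⟨x, rfl⟩ := QuotientGroup.mk_surjective z
    rcases hdec x x.2 with hx | hx
    · exact ⟨⟨x, hK₀d ▸ hx⟩, rfl⟩
    · refine ⟨⟨x * a, hK₀d ▸ hx⟩, QuotientGroup.eq.2 ?_⟩
      rw [show (inclusion hle₀ ⟨(x : G) * a, hK₀d ▸ hx⟩)⁻¹ * x = A⁻¹ from Subtype.ext (by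
        simp [hA])]
      exact inv_mem hAc
  have hhker : center ↥K₀ = h.ker := by
    ext x
    rw [MonoidHom.mem_ker, MonoidHom.comp_apply, QuotientGroup.mk'_apply, QuotientGroup.eq_one_iff]
    refine ⟨fun hx => mem_center_iff.2 fun y => Subtype.ext ?_, fun hx => mem_center_iff.2 fun y =>
      Subtype.ext (congrArg Subtype.val (mem_center_iff.1 hx (inclusion hle₀ y)) :)⟩
    simp only [Subgroup.coe_mul, coe_inclusion]
    have hx' : Commute a (x : G) := (hJmem.1 (hle₀ x.2)).1
    rcases hdec y y.2 with hy | hy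
    · exact (congrArg Subtype.val (mem_center_iff.1 hx ⟨y, hK₀d ▸ hy⟩) :)
    · have e : Commute (x : G) ((y : G) * a) :=
        (congrArg Subtype.val (mem_center_iff.1 hx ⟨(y : G) * a, hK₀d ▸ hy⟩)).symm
      have := e.mul_right hx'.symm
      rw [mul_assoc, H17.sq_one hG.1 ha, mul_one] at this
      exact this.eq.symm
  subst hJ
  let ψ : ↥K₀ ⧸ center ↥K₀ ≃* Cfsg.PSU 6 F 2 :=
    ((QuotientGroup.quotientMulEquivOfEq hhker).trans
      (QuotientGroup.quotientKerEquivOfSurjective h hhs)).trans φ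
  have hFq : Fintype.card F = 2 ^ 2 := by rw [hF]; norm_num
  have hqs : Cfsg.IsQuasisimple ↥K₀ := by
    refine ⟨inferInstance, ?_⟩
    haveI := H3.isSimpleGroup_PSU (F := F) (n := 6) hFq (by norm_num) (by norm_num)
    haveI := ψ.toEquiv.nontrivial
    exact IsSimpleGroup.isSimpleGroup_of_surjective ψ.symm.toMonoidHom ψ.symm.surjective
  -- the four-group
  obtain ⟨E, hE⟩ : ∃ E, E = closure ({a * b, a * c} : Set G) := ⟨_, rfl⟩
  rw [← hE]
  have habL : ∀ y ∈ D, a * y ∈ L := fun y hy => by
    obtain ⟨g, rfl⟩ := H17.class_transitive hD ha hy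
    rw [hL, ← mul_assoc, ← mul_assoc, _root_.commutator_def]
    have := commutator_mem_commutator (mem_top a) (mem_top g)
    rwa [commutatorElement_def, H17.inv_self hG.1 ha] at this
  have hEV : E ≤ closure ({a, b, c} : Set G) := by
    rw [hE, closure_le]
    rintro z (rfl | rfl)
    · exact mul_mem (subset_closure (by simp)) (subset_closure (by simp))
    · exact mul_mem (subset_closure (by simp)) (subset_closure (by simp))
  have hVc : closure ({a, b, c} : Set G) ≤ centralizer ({a, b, c} : Set G) :=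
    hcen ▸ map_subtype_le _
  have hEL : E ≤ L := by
    rw [hE, closure_le]
    rintro z (rfl | rfl)
    · exact habL b hb
    · exact habL c hc
  have hE₀ : E ≤ K₀ := hK₀ ▸ le_inf hEL (hEV.trans hVc)
  have hVE : ∀ v ∈ closure ({a, b, c} : Set G), v ∈ E ∨ v * a ∈ E := by
    have hz : ∀ v ∈ E, Commute a v := fun v hv => (hJmem.1 (hle₀ (hE₀ hv))).1
    have ha2 := H17.sq_one hG.1 ha
    intro v hv
    induction hv using closure_induction with
    | mem y hy =>
      right
      rcases hy with rfl | rfl | rfl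
      · rw [ha2]; exact one_mem _
      · rw [← cab.eq, hE]; exact subset_closure (by simp)
      · rw [← cac.eq, hE]; exact subset_closure (by simp)
    | one => exact Or.inl (one_mem _)
    | mul u w _ _ hu hw =>
      rcases hu with hu | hu <;> rcases hw with hw | hw
      · exact Or.inl (mul_mem hu hw)
      · exact Or.inr (by rw [mul_assoc]; exact mul_mem hu hw)
      · refine Or.inr ?_
        rw [show u * w * a = u * a * w by rw [mul_assoc, ← (hz w hw).eq, ← mul_assoc]]
        exact mul_mem hu hw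
      · refine Or.inl ?_
        have : u * w = u * a * (w * a) := by
          have e : a * w * a = w := by
            have := hz _ hw
            calc a * w * a = (a * (w * a)) := by rw [mul_assoc]
              _ = w * a * a := this.eq
              _ = w := by rw [mul_assoc, ha2, mul_one]
          rw [show u * a * (w * a) = u * (a * w * a) by group, e]
        rw [this]
        exact mul_mem hu hw
    | inv u _ hu =>
      rcases hu with hu | hu
      · exact Or.inl (inv_mem hu)
      · refine Or.inr ?_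
        have := hz _ (inv_mem hu)
        have e : u⁻¹ * a = (u * a)⁻¹ := by
          rw [mul_inv_rev, H17.inv_self hG.1 ha]
          have h1 : Commute a u := by
            have := (hz _ hu).mul_right (Commute.refl a)
            rwa [mul_assoc, ha2, mul_one] at this
          exact h1.inv_right.eq.symm
        rw [e]; exact inv_mem hu
  have hcen₀ : (center ↥K₀).map K₀.subtype = E := by
    refine le_antisymm ?_ fun e he => ?_
    · rintro _ ⟨x, hx, rfl⟩
      have hxJ : inclusion hle₀ x ∈ center ↥(centralizer ({a, b, c} : Set G)) := by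
        rw [hhker] at hx
        exact (QuotientGroup.eq_one_iff _).1 hx
      have hxV : (x : G) ∈ closure ({a, b, c} : Set G) := hcen ▸ ⟨_, hxJ, rfl⟩
      refine (hVE _ hxV).resolve_right fun h => haL ?_
      have hxL : (x : G) ∈ L := (hK₀.le x.2).1
      have := L.mul_mem (L.inv_mem hxL) (hEL h)
      simpa using this
    · refine ⟨⟨e, hE₀ he⟩, mem_center_iff.2 fun y => Subtype.ext ?_, rfl⟩
      obtain ⟨z, hz, hze⟩ := hcen.symm ▸ hEV he
      have := congrArg Subtype.val (mem_center_iff.1 hz (inclusion hle₀ y))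
      simp only [Subgroup.coe_mul, coe_inclusion] at this
      simpa [← hze] using this
  -- the centralizer of the four-group
  have hw : ∃ p ∈ D, ∃ q ∈ D, p ≠ q ∧ Commute p q := ⟨a, ha, b, hb, hab, cab⟩
  have hCE : centralizer (E : Set G) = centralizer ({a, b, c} : Set G) := by
    refine le_antisymm (fun g hg => ?_) fun g hg => ?_
    · have pair : ∀ y ∈ D, a ≠ y → Commute a y → a * y ∈ E →
          (g * a * g⁻¹ = a ∨ g * a * g⁻¹ = y) ∧ (g * a * g⁻¹ = a → Commute y g) := by
        intro y hy hne hcy hmem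
        have he : g * a * g⁻¹ * (g * y * g⁻¹) = a * y := by
          rw [show g * a * g⁻¹ * (g * y * g⁻¹) = g * (a * y) * g⁻¹ by group,
            ← mem_centralizer_iff.1 hg _ hmem, mul_inv_cancel_right]
        refine ⟨H43.FactorUnique.pair_unique hG.1 hG.2.1
          (fun p q hv => H17.vrel_eq hD hprim hw hv) (hG.2.1 g a ha) (hG.2.1 g y hy) ha hy
          ((H17.commute_conj g).2 hcy) (fun e => hne (mul_left_cancel (mul_right_cancel e))) hcy he,
          fun h1 => ?_⟩
        rw [h1] at he
        exact (mul_inv_eq_iff_eq_mul.1 (mul_left_cancel he)).symm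
      obtain ⟨p1, p2⟩ := pair b hb hab cab (hE ▸ subset_closure (by simp))
      obtain ⟨q1, q2⟩ := pair c hc hac cac (hE ▸ subset_closure (by simp))
      have e1 : g * a * g⁻¹ = a := by
        rcases p1 with e | e
        · exact e
        rcases q1 with e' | e'
        · exact e'
        · exact absurd (e.symm.trans e') hbc
      exact hJmem.2 ⟨(show Commute g a from mul_inv_eq_iff_eq_mul.1 e1).symm, p2 e1, q2 e1⟩
    · refine mem_centralizer_iff.2 fun e he => ?_
      obtain ⟨z, hz, hze⟩ := hcen.symm ▸ hEV he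
      have := congrArg Subtype.val (mem_center_iff.1 hz ⟨g, hg⟩)
      simp only [Subgroup.coe_mul] at this
      rw [show (z : G) = e from hze] at this
      exact this.symm
  -- inside the centralizer of the product
  have hle : K₀ ≤ CL := by
    rw [hCL]
    refine le_inf (hK₀.le.trans inf_le_left) fun x hx => ?_
    obtain ⟨e1, e2, e3⟩ := hJmem.1 (hle₀ hx)
    exact mem_centralizer_singleton_iff.2 ((e1.mul_left e2).mul_left e3).symm.eq
  obtain ⟨f, hfs, hfk⟩ := H43.FischerSymmetry.triple_quotient hG hprim hd₀ h2 (Or.inr h24)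
    ha hb hc hab hac hbc cab cac cbc
  have hCLC : CL ≤ centralizer ({a * b * c} : Set G) := hCL.le.trans inf_le_right
  have hgk : (f.comp (inclusion hCLC)).ker = K₀.subgroupOf CL := by
    ext x
    rw [MonoidHom.mem_ker, MonoidHom.comp_apply, ← MonoidHom.mem_ker, hfk, mem_subgroupOf,
      mem_subgroupOf, coe_inclusion, hK₀, mem_inf]
    exact (and_iff_right (hCL.le x.2).1).symm
  have haC : a ∈ centralizer ({a * b * c} : Set G) :=
    mem_centralizer_singleton_iff.2 (((Commute.refl a).mul_right cab).mul_right cac).eq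
  have hfa : f ⟨a, haC⟩ = 1 := by
    rw [← MonoidHom.mem_ker, hfk, mem_subgroupOf]; exact haJ
  have hgs : Function.Surjective (f.comp (inclusion hCLC)) := by
    intro σ
    obtain ⟨x, rfl⟩ := hfs σ
    rcases mem_or_mul_mem hD ha (x : G) with hx | hx
    · exact ⟨⟨x, hCL.ge ⟨hL ▸ hx, x.2⟩⟩, rfl⟩
    · refine ⟨⟨(x * ⟨a, haC⟩ : ↥(centralizer ({a * b * c} : Set G))),
        hCL.ge ⟨hL ▸ hx, SetLike.coe_mem _⟩⟩, ?_⟩
      show f (x * ⟨a, haC⟩) = f x
      rw [map_mul, hfa, mul_one]
  have hnor : (K₀.subgroupOf CL).Normal := hgk ▸ MonoidHom.normal_ker _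
  -- an element centralizing `K₀` lies in the four-group
  have hcenK : ∀ x ∈ CL, x ∈ centralizer (K₀ : Set G) → x ∈ E := fun x hxC hx => by
    have hxJ : x ∈ centralizer ({a, b, c} : Set G) :=
      hCE.le (mem_centralizer_iff.2 fun e he => mem_centralizer_iff.1 hx e (hE₀ he))
    have hx₀ : x ∈ K₀ := hK₀.ge ⟨(hCL.le hxC).1, hxJ⟩
    exact hcen₀.le ⟨⟨x, hx₀⟩, mem_center_iff.2 fun y =>
      Subtype.ext (mem_centralizer_iff.1 hx y y.2), rfl⟩
  have hgF : Cfsg.generalizedFittingSubgroup ↥CL = K₀.subgroupOf CL := by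
    refine generalizedFitting_eq hnor (H51.quasisimple_of_equiv hqs (subgroupOfEquivOfLe hle).symm)
      fun x hx => ?_
    rw [mem_subgroupOf]
    refine hE₀ (hcenK x x.2 (mem_centralizer_iff.2 fun k hk => ?_))
    exact (congrArg Subtype.val (mem_centralizer_iff.1 hx ⟨k, hle hk⟩ (by simpa [mem_subgroupOf] using hk)) :)
  have hKK : K = K₀ := by
    rw [hK, hgF, map_subgroupOf_eq_of_le hle]
  subst hKK
  have hEK : E.subgroupOf K = center ↥K := by
    ext x
    rw [mem_subgroupOf, ← hcen₀]
    exact ⟨fun ⟨y, hy, e⟩ => Subtype.ext e ▸ hy, fun hx => ⟨x, hx, rfl⟩⟩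
  have hnE : (E.subgroupOf K).Normal := hEK ▸ inferInstance
  refine ⟨hqs, hcen₀, by rw [hK₀, hCE], ⟨hnE, F, iF, iFF, hF,
    ⟨(QuotientGroup.quotientMulEquivOfEq hEK).trans ψ⟩⟩, hnor,
    ⟨(QuotientGroup.quotientMulEquivOfEq hgk.symm).trans
      (QuotientGroup.quotientKerEquivOfSurjective _ hgs)⟩, hE₀.trans hle, ?_⟩
  -- the automorphisms
  have hnorm : CL ≤ normalizer (K : Set G) := (normal_subgroupOf_iff_le_normalizer hle).mp hnor
  let Θ : ↥CL →* MulAut (Cfsg.PSU 6 F 2) :=
    (MulAut.congr ψ).toMonoidHom.comp ((H52.normAct K).comp (inclusion hnorm))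
  have hΘk : Θ.ker = E.subgroupOf CL := by
    ext x
    rw [MonoidHom.mem_ker, MonoidHom.comp_apply, MulEquiv.coe_toMonoidHom,
      EmbeddingLike.map_eq_one_iff, MonoidHom.comp_apply, H52.normAct_eq_one_iff, coe_inclusion,
      mem_subgroupOf]
    refine ⟨hcenK x x.2, fun hx => ?_⟩
    rw [← hcen₀] at hx
    obtain ⟨z, hz, hzx⟩ := hx
    refine mem_centralizer_iff.2 fun k hk => ?_
    rw [← hzx]
    exact (congrArg Subtype.val (mem_center_iff.1 hz ⟨k, hk⟩) :)
  haveI : Finite (MulAut (Cfsg.PSU 6 F 2)) := Finite.of_injective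
    (fun e : MulAut (Cfsg.PSU 6 F 2) => (e : Cfsg.PSU 6 F 2 → Cfsg.PSU 6 F 2))
    fun e e' he => MulEquiv.ext (congrFun he)
  haveI : Fact (Nat.Prime 2) := ⟨Nat.prime_two⟩
  have hΘs : Function.Surjective Θ := by
    rw [← MonoidHom.range_eq_top]
    refine eq_top_of_card_eq _ ?_
    rw [← index_ker, hΘk, H23.AutPSU.card_aut (q := 2) (p := 2) (f := 1) le_rfl (pow_one 2).symm hFq (by norm_num)
      (by norm_num)]
    have h1 : (K.subgroupOf CL).index = 6 := by
      rw [← hgk, index_ker, MonoidHom.range_eq_top.2 hgs, card_top, Nat.card_perm]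
      simp [Nat.factorial]
    have h2' : ((E.subgroupOf CL).subgroupOf (K.subgroupOf CL)).index =
        Nat.card (Cfsg.PSU 6 F 2) := by
      rw [← relIndex_top_right, ← Nat.card_congr ψ.toEquiv]
      show _ = (center ↥K).index
      rw [← hEK]
      show _ = E.relIndex K
      rw [relIndex_top_right]
      exact relIndex_subgroupOf hle
    have h3 : (E.subgroupOf CL).relIndex (K.subgroupOf CL) * (K.subgroupOf CL).index =
        (E.subgroupOf CL).index := relIndex_mul_index (comap_mono hE₀)
    rw [← h3, h1, show (E.subgroupOf CL).relIndex (K.subgroupOf CL) = _ from h2', mul_comm]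
    norm_num
  haveI hnC : (E.subgroupOf CL).Normal := hΘk ▸ MonoidHom.normal_ker _
  exact ⟨hnC, F, iF, iFF, hF,
    ⟨(QuotientGroup.quotientMulEquivOfEq hΘk.symm).trans
      (QuotientGroup.quotientKerEquivOfSurjective Θ hΘs)⟩⟩

end Cfsg.Agent.H89.M24
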