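import Cfsg.Agent.H89.M24.Pair
import Cfsg.Agent.H89.M24.TripleProduct
import Cfsg.Agent.H89.M22.AutBound

/-! In type M(24) the centralizer, in the commutator subgroup, of a product of two commuting
members is the full automorphism group of a group of type M(22) extended by that product. -/

set_option autoImplicit false

open Cfsg.Agent.H43.FischerTwins Cfsg.Agent.H53 Cfsg.Agent.H89.M23
open Subgroup
open scoped commutatorElement

namespace Cfsg.Agent.H89.M24

variable {G : Type*} [Group G] [Finite G] {D : Set G}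

/-- The centralizer of the product of two commuting members inside the commutator subgroup, when
the members lie outside it. -/
theorem pair_product (hG : Cfsg.IsThreeTranspositionGroup D)
    (hprim : Cfsg.IsPrimitiveUnderConj D) (h24 : Cfsg.IsOfTypeM24 G D) {L : Subgroup G}
    (hL : L = commutator G) {a b : G} (ha : a ∈ D) (hb : b ∈ D) (hne : a ≠ b) (hc : Commute a b)
    (haL : a ∉ L) {K CL : Subgroup G} (hK : K = L ⊓ centralizer ({a, b} : Set G))
    (hCL : CL = L ⊓ centralizer ({a * b} : Set G))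
    [hn : ((zpowers (a * b)).subgroupOf CL).Normal] :
    Cfsg.IsQuasisimple ↥K ∧ K = (Cfsg.generalizedFittingSubgroup ↥CL).map CL.subtype ∧ K ≤ CL ∧
      (K.subgroupOf CL).index = 2 ∧ a * b ∈ K ∧
      ∃ E : Set (↥K ⧸ center ↥K), Cfsg.IsThreeTranspositionClass E ∧
        Cfsg.IsPrimitiveUnderConj E ∧ Cfsg.IsOfTypeM22 (↥K ⧸ center ↥K) E ∧
        Nonempty (↥CL ⧸ (zpowers (a * b)).subgroupOf CL ≃* MulAut (↥K ⧸ center ↥K)) := by
  classical
  have hD := (H17.class_of_primitive hG hprim).1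
  obtain ⟨hdec, hcen, ⟨E, hE1, hE2, hE3⟩, c, hca, hcb⟩ := pair_facts hD hprim h24 ha hb hne hc
  have hLn : L.Normal := hL ▸ inferInstance
  obtain ⟨J, hJ⟩ : ∃ J, J = centralizer ({a, b} : Set G) := ⟨_, rfl⟩
  rw [← hJ] at hdec hK
  have hJmem : ∀ {x : G}, x ∈ J ↔ Commute a x ∧ Commute b x := fun {x} => by
    rw [hJ, mem_centralizer_iff]
    simp only [Set.mem_insert_iff, Set.mem_singleton_iff, forall_eq_or_imp, forall_eq]
    rfl
  have ha2 : a * a = 1 := H17.sq_one hG.1 ha
  have haJ : a ∈ J := hJmem.2 ⟨Commute.refl a, hc.symm⟩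
  have hder : ⁅J, J⁆ ≤ L := hL ▸ _root_.commutator_def G ▸ commutator_mono le_top le_top
  have hKd : K = ⁅J, J⁆ := by
    refine le_antisymm (fun x hx => ?_) (hK ▸ le_inf hder (commutator_le_self J))
    rw [hK] at hx
    refine (hdec x hx.2).resolve_right fun h => haL ?_
    simpa using L.mul_mem (L.inv_mem hx.1) (hder h)
  have hperf : ⁅K, K⁆ = K := by
    refine le_antisymm (commutator_le_self K) (le_of_eq_of_le hKd ?_)
    rw [commutator_le]
    intro x hx y hy
    have red : ∀ u ∈ J, ∃ u' ∈ K, ∀ w ∈ J, ⁅u, w⁆ = ⁅u', w⁆ ∧ ⁅w, u⁆ = ⁅w, u'⁆ := by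
      intro u hu
      rcases hdec u hu with h | h
      · exact ⟨u, hKd ▸ h, fun w _ => ⟨rfl, rfl⟩⟩
      · refine ⟨u * a, hKd ▸ h, fun w hw => ?_⟩
        have e : Commute a w := (hJmem.1 hw).1
        have e1 : a * w * a⁻¹ = w := by rw [e.eq, mul_inv_cancel_right]
        refine ⟨?_, ?_⟩
        · rw [commutatorElement_def, commutatorElement_def]
          calc u * w * u⁻¹ * w⁻¹ = u * (a * w * a⁻¹) * u⁻¹ * w⁻¹ := by rw [e1]
            _ = _ := by group
        · rw [commutatorElement_def, commutatorElement_def]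
          calc w * u * w⁻¹ * u⁻¹ = w * u * (a * w * a⁻¹)⁻¹ * u⁻¹ := by rw [e1]
            _ = _ := by group
    obtain ⟨x', hx', hxe⟩ := red x hx
    obtain ⟨y', hy', hye⟩ := red y hy
    rw [(hxe y hy).1, (hye x' (show x' ∈ J from (hK ▸ hx' : x' ∈ L ⊓ J).2)).2]
    exact commutator_mem_commutator hx' hy'
  haveI : Group.IsPerfect ↥K := Subgroup.isPerfect_iff.mpr hperf
  have hle₀ : K ≤ J := hK.le.trans inf_le_right
  let h : ↥K →* ↥J ⧸ center ↥J := (QuotientGroup.mk' _).comp (inclusion hle₀)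
  obtain ⟨A, hA⟩ : ∃ A : ↥J, (A : G) = a := ⟨⟨a, haJ⟩, rfl⟩
  have hAc : A ∈ center ↥J := mem_center_iff.2 fun y => Subtype.ext (by
    simp only [Subgroup.coe_mul, hA]
    exact (hJmem.1 y.2).1.eq.symm)
  have hhs : Function.Surjective h := by
    intro z
    obtain ⟨x, rfl⟩ := QuotientGroup.mk_surjective z
    rcases hdec x x.2 with hx | hx
    · exact ⟨⟨x, hKd ▸ hx⟩, rfl⟩
    · refine ⟨⟨x * a, hKd ▸ hx⟩, QuotientGroup.eq.2 ?_⟩
      rw [show (inclusion hle₀ ⟨(x : G) * a, hKd ▸ hx⟩)⁻¹ * x = A⁻¹ from Subtype.ext (by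
        simp [hA])]
      exact inv_mem hAc
  have hhker : center ↥K = h.ker := by
    ext x
    rw [MonoidHom.mem_ker, MonoidHom.comp_apply, QuotientGroup.mk'_apply, QuotientGroup.eq_one_iff]
    refine ⟨fun hx => mem_center_iff.2 fun y => Subtype.ext ?_, fun hx => mem_center_iff.2 fun y =>
      Subtype.ext (congrArg Subtype.val (mem_center_iff.1 hx (inclusion hle₀ y)) :)⟩
    simp only [Subgroup.coe_mul, coe_inclusion]
    have hx' : Commute a (x : G) := (hJmem.1 (hle₀ x.2)).1
    rcases hdec y y.2 with hy | hy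
    · exact (congrArg Subtype.val (mem_center_iff.1 hx ⟨y, hKd ▸ hy⟩) :)
    · have e : Commute (x : G) ((y : G) * a) :=
        (congrArg Subtype.val (mem_center_iff.1 hx ⟨(y : G) * a, hKd ▸ hy⟩)).symm
      have := e.mul_right hx'.symm
      rw [mul_assoc, ha2, mul_one] at this
      exact this.eq.symm
  subst hJ
  let ψ : ↥(centralizer ({a, b} : Set G)) ⧸ center ↥(centralizer ({a, b} : Set G)) ≃*
      ↥K ⧸ center ↥K :=
    ((QuotientGroup.quotientMulEquivOfEq hhker).trans
      (QuotientGroup.quotientKerEquivOfSurjective h hhs)).symm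
  have hM1 := class_map ψ hE1
  have hM2 := primitive_map ψ hE2
  have hM3 := H43.M23.m22_map ψ hE3
  have hqs : Cfsg.IsQuasisimple ↥K := ⟨inferInstance, (m22_simple hM1 hM2 hM3).1⟩
  -- the product
  have habL : a * b ∈ L := by
    obtain ⟨g, rfl⟩ := H17.class_transitive hD ha hb
    rw [hL, ← mul_assoc, ← mul_assoc, _root_.commutator_def]
    have := commutator_mem_commutator (mem_top a) (mem_top g)
    rwa [commutatorElement_def, H17.inv_self hG.1 ha] at this
  have hbJ : b ∈ centralizer ({a, b} : Set G) := hJmem.2 ⟨hc, Commute.refl b⟩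
  have habK : a * b ∈ K := hK ▸ ⟨habL, mul_mem haJ hbJ⟩
  have hVdec : ∀ v ∈ closure ({a, b} : Set G), v ∈ zpowers (a * b) ∨ v * a ∈ zpowers (a * b) := by
    intro v hv
    induction hv using closure_induction with
    | mem y hy =>
      right
      rcases hy with rfl | rfl
      · rw [ha2]; exact one_mem _
      · rw [← hc.eq]; exact mem_zpowers _
    | one => exact Or.inl (one_mem _)
    | mul u w _ _ hu hw =>
      have hz : ∀ v ∈ zpowers (a * b), Commute a v := fun v ⟨i, e⟩ =>
        e ▸ ((Commute.refl a).mul_right hc).zpow_right i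
      rcases hu with hu | hu <;> rcases hw with hw | hw
      · exact Or.inl (mul_mem hu hw)
      · exact Or.inr (by rw [mul_assoc]; exact mul_mem hu hw)
      · refine Or.inr ?_
        rw [show u * w * a = u * a * w by rw [mul_assoc, ← (hz w hw).eq, ← mul_assoc]]
        exact mul_mem hu hw
      · refine Or.inl ?_
        have e : a * w * a = w := by
          rw [mul_assoc, (hz _ hw).eq, mul_assoc, ha2, mul_one]
        rw [show u * w = u * a * (w * a) by rw [show u * a * (w * a) = u * (a * w * a) by group, e]]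
        exact mul_mem hu hw
    | inv u _ hu =>
      rcases hu with hu | hu
      · exact Or.inl (inv_mem hu)
      · refine Or.inr ?_
        have h1 : Commute a (u * a) := by
          obtain ⟨i, e⟩ := hu
          exact e ▸ ((Commute.refl a).mul_right hc).zpow_right i
        have h2 := h1.mul_right (Commute.refl a)
        rw [mul_assoc, ha2, mul_one] at h2
        have e : u⁻¹ * a = (u * a)⁻¹ := by
          rw [mul_inv_rev, H17.inv_self hG.1 ha]
          exact h2.inv_right.eq.symm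
        rw [e]; exact inv_mem hu
  have hcen₀ : (center ↥K).map K.subtype = zpowers (a * b) := by
    refine le_antisymm ?_ ((zpowers_le).2 ?_)
    · rintro _ ⟨x, hx, rfl⟩
      rw [hhker] at hx
      have hxV : (x : G) ∈ closure ({a, b} : Set G) :=
        hcen ▸ ⟨inclusion hle₀ x, (QuotientGroup.eq_one_iff _).1 hx, rfl⟩
      refine (hVdec _ hxV).resolve_right fun h => haL ?_
      have hxL : (x : G) ∈ L := (hK.le x.2).1
      simpa using L.mul_mem (L.inv_mem hxL) (zpowers_le.2 habL h)
    · exact ⟨⟨a * b, habK⟩, mem_center_iff.2 fun y => Subtype.ext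
        ((hJmem.1 (hle₀ y.2)).1.mul_left (hJmem.1 (hle₀ y.2)).2).eq.symm, rfl⟩
  -- inside the centralizer of the product
  have hle : K ≤ CL := by
    rw [hCL]
    exact le_inf (hK.le.trans inf_le_left) fun x hx => mem_centralizer_singleton_iff.2
      ((hJmem.1 (hle₀ hx)).1.mul_left (hJmem.1 (hle₀ hx)).2).symm.eq
  have hw : ∃ p ∈ D, ∃ q ∈ D, p ≠ q ∧ Commute p q := ⟨a, ha, b, hb, hne, hc⟩
  have hconj := H17.class_conj hD
  have hab : ∀ x ∈ CL, (x * a * x⁻¹ = a ∧ x * b * x⁻¹ = b) ∨
      (x * a * x⁻¹ = b ∧ x * b * x⁻¹ = a) := by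
    intro x hx
    rw [hCL] at hx
    have hx' : x * a * x⁻¹ * (x * b * x⁻¹) = a * b := by
      rw [show x * a * x⁻¹ * (x * b * x⁻¹) = x * (a * b) * x⁻¹ by group,
        mem_centralizer_singleton_iff.1 hx.2, mul_inv_cancel_right]
    rcases H43.FactorUnique.pair_unique hD.1 hconj
        (fun p q hv => H17.vrel_eq hD hprim hw hv)
        (hconj x a ha) (hconj x b hb) ha hb ((H17.commute_conj x).2 hc)
        (fun e => hne (mul_left_cancel (mul_right_cancel e))) hc hx' with e | e
    · exact Or.inl ⟨e, by rw [e] at hx'; exact mul_left_cancel hx'⟩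
    · exact Or.inr ⟨e, by rw [e, hc.eq] at hx'; exact mul_left_cancel hx'⟩
  have hKiff : ∀ x ∈ CL, x ∈ K ↔ x * a * x⁻¹ = a := by
    intro x hx
    constructor
    · intro h
      rw [← (hJmem.1 (hle₀ h)).1.eq, mul_inv_cancel_right]
    · intro h
      rcases hab x hx with ⟨-, h'⟩ | ⟨h', -⟩
      · rw [hCL] at hx
        exact hK ▸ ⟨hx.1, hJmem.2 ⟨(show Commute x a from mul_inv_eq_iff_eq_mul.1 h).symm,
          (show Commute x b from mul_inv_eq_iff_eq_mul.1 h').symm⟩⟩
      · exact absurd (h.symm.trans h') hne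
  -- an element exchanging the two members
  obtain ⟨v, hv, hav, hvb⟩ := H43.FischerSymmetry.common_neighbour hD hprim hca.1 (u := a) (t := b)
    ⟨ha, hca.2.1.symm, hca.2.2.symm⟩ ⟨hb, hcb.2.1.symm, hcb.2.2.symm⟩ hne.symm hc
  obtain ⟨s, hs⟩ : ∃ s, s = v * (a * b) * v := ⟨_, rfl⟩
  obtain ⟨sa, sb⟩ := H43.FischerSymmetry.exchange hD.1 ha hb hv.1 hc hav hvb
  rw [← hs] at sa sb
  have hsab : s * (a * b) * s⁻¹ = a * b := by
    rw [show s * (a * b) * s⁻¹ = s * a * s⁻¹ * (s * b * s⁻¹) by group, sa, sb, hc.eq]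
  have hsL : s ∈ L := by
    have hv2 : v⁻¹ = v := H17.inv_self hG.1 hv.1
    simpa [hs, hv2] using hLn.conj_mem _ habL v
  have hsC : s ∈ CL := hCL ▸ ⟨hsL, mem_centralizer_singleton_iff.2 (mul_inv_eq_iff_eq_mul.1 hsab)⟩
  have hindex : (K.subgroupOf CL).index = 2 := by
    rw [index_eq_two_iff]
    refine ⟨⟨s, hsC⟩, fun x => ?_⟩
    rw [mem_subgroupOf, mem_subgroupOf, hKiff _ (SetLike.coe_mem _), hKiff _ x.2]
    have hxs : ((x * ⟨s, hsC⟩ : ↥CL) : G) * a * ((x * ⟨s, hsC⟩ : ↥CL) : G)⁻¹ =
        (x : G) * b * (x : G)⁻¹ := by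
      rw [Subgroup.coe_mul, ← sa]; group
    rw [hxs]
    rcases hab x x.2 with ⟨e1, e2⟩ | ⟨e1, e2⟩
    · exact Or.inr ⟨e1, fun e => hne (e.symm.trans e2)⟩
    · exact Or.inl ⟨e2, fun e => hne (e.symm.trans e1)⟩
  have hnor : (K.subgroupOf CL).Normal := normal_of_index_eq_two hindex
  -- an element centralizing `K` lies in the subgroup generated by the product
  have hcaK : c * a ∈ K := by
    refine hK ▸ ⟨?_, mul_mem (hJmem.2 ⟨hca.2.2, hcb.2.2⟩) haJ⟩
    obtain ⟨g, rfl⟩ := H17.class_transitive hD ha hca.1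
    rw [hL, _root_.commutator_def]
    have := commutator_mem_commutator (mem_top g) (mem_top a)
    rwa [commutatorElement_def, H17.inv_self hG.1 ha] at this
  have hcenK : ∀ x ∈ CL, x ∈ centralizer (K : Set G) → x ∈ zpowers (a * b) := by
    intro x hxC hx
    have hxK : x ∈ K := by
      rw [hKiff x hxC]
      rcases hab x hxC with ⟨e, -⟩ | ⟨e, -⟩
      · exact e
      exfalso
      have hx' : b * (x * c * x⁻¹) = a * c := by
        rw [← e, show x * a * x⁻¹ * (x * c * x⁻¹) = x * (a * c) * x⁻¹ by group, hca.2.2.eq,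
          ← mem_centralizer_iff.1 hx _ hcaK, mul_inv_cancel_right]
      have hbc : Commute b (x * c * x⁻¹) := by
        rw [← e]; exact (H17.commute_conj x).2 hca.2.2
      rcases H43.FactorUnique.pair_unique hD.1 hconj
          (fun p q hv => H17.vrel_eq hD hprim hw hv) hb (hconj x c hca.1) ha hca.1 hbc
          (fun e' => hca.2.1 (mul_left_cancel (mul_right_cancel (e'.symm.trans e.symm))))
          hca.2.2 hx' with h | h
      · exact hne h.symm
      · exact hcb.2.1 h.symm
    exact hcen₀.le ⟨⟨x, hxK⟩, mem_center_iff.2 fun y =>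
      Subtype.ext (mem_centralizer_iff.1 hx y y.2), rfl⟩
  have hgF : Cfsg.generalizedFittingSubgroup ↥CL = K.subgroupOf CL := by
    refine generalizedFitting_eq hnor (H51.quasisimple_of_equiv hqs (subgroupOfEquivOfLe hle).symm)
      fun x hx => ?_
    rw [mem_subgroupOf]
    refine zpowers_le.2 habK (hcenK x x.2 (mem_centralizer_iff.2 fun k hk => ?_))
    exact (congrArg Subtype.val (mem_centralizer_iff.1 hx ⟨k, hle hk⟩
      (by simpa [mem_subgroupOf] using hk)) :)
  refine ⟨hqs, by rw [hgF, map_subgroupOf_eq_of_le hle], hle, hindex, habK, ψ '' E, hM1, hM2, hM3,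
    ?_⟩
  -- the automorphisms
  have hnorm : CL ≤ normalizer (K : Set G) := (normal_subgroupOf_iff_le_normalizer hle).mp hnor
  let Θ : ↥CL →* MulAut (↥K ⧸ center ↥K) := (H52.normAct K).comp (inclusion hnorm)
  have hΘk : Θ.ker = (zpowers (a * b)).subgroupOf CL := by
    ext x
    rw [MonoidHom.mem_ker, MonoidHom.comp_apply, H52.normAct_eq_one_iff, coe_inclusion,
      mem_subgroupOf]
    refine ⟨hcenK x x.2, fun hx => ?_⟩
    rw [← hcen₀] at hx
    obtain ⟨z, hz, hzx⟩ := hx
    refine mem_centralizer_iff.2 fun k hk => ?_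
    rw [← hzx]
    exact (congrArg Subtype.val (mem_center_iff.1 hz ⟨k, hk⟩) :)
  haveI : Finite (MulAut (↥K ⧸ center ↥K)) := Finite.of_injective
    (fun e : MulAut (↥K ⧸ center ↥K) => (e : ↥K ⧸ center ↥K → ↥K ⧸ center ↥K))
    fun e e' he => MulEquiv.ext (congrFun he)
  have hΘs : Function.Surjective Θ := by
    rw [← MonoidHom.range_eq_top]
    refine eq_top_of_card_eq _ (le_antisymm (card_le_card_group _) ?_)
    refine (H89.M22.card_aut_le hM1 hM2 hM3).trans (le_of_eq ?_)
    rw [← index_ker, hΘk]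
    have h3 : ((zpowers (a * b)).subgroupOf CL).relIndex (K.subgroupOf CL) *
        (K.subgroupOf CL).index = ((zpowers (a * b)).subgroupOf CL).index :=
      relIndex_mul_index (comap_mono (zpowers_le.2 habK))
    rw [← h3, hindex, mul_comm]
    congr 1
    rw [← index_eq_card, show (center ↥K) = (zpowers (a * b)).subgroupOf K by
      rw [← hcen₀]; exact (comap_map_eq_self_of_injective K.subtype_injective _).symm]
    exact ((relIndex_subgroupOf hle)).symm
  exact ⟨(QuotientGroup.quotientMulEquivOfEq hΘk.symm).trans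
    (QuotientGroup.quotientKerEquivOfSurjective Θ hΘs)⟩

end Cfsg.Agent.H89.M24
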